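import Cfsg.Agent.FpC.B
import Cfsg.Agent.Solv.Basic

set_option autoImplicit false
set_option linter.unusedSectionVars false

namespace Cfsg.Agent.Rf3

open Subgroup

variable {M : Type*} [CommGroup M] [Finite M]

/-- `[M, σ]` -/
def W (σ : MulAut M) : Subgroup M :=
  (MonoidHom.mk' (fun m => m⁻¹ * σ m) fun a b => by
    rw [map_mul, mul_inv, mul_mul_mul_comm]).range

theorem mem_W {σ : MulAut M} {w : M} : w ∈ W σ ↔ ∃ m, m⁻¹ * σ m = w := Iff.rfl

theorem gen_W (σ : MulAut M) (m : M) : m⁻¹ * σ m ∈ W σ := ⟨m, rfl⟩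

theorem W_conj (σ τ : MulAut M) : W (τ * σ * τ⁻¹) = (W σ).map (τ : M →* M) := by
  ext w
  constructor
  · rintro ⟨m, rfl⟩
    refine ⟨_, gen_W σ (τ⁻¹ m), ?_⟩
    change τ ((τ⁻¹ m)⁻¹ * σ (τ⁻¹ m)) = m⁻¹ * τ (σ (τ⁻¹ m))
    rw [map_mul, map_inv]; simp
  · rintro ⟨_, ⟨m, rfl⟩, rfl⟩
    refine ⟨τ m, ?_⟩
    change (τ m)⁻¹ * τ (σ (τ⁻¹ (τ m))) = τ (m⁻¹ * σ m)
    rw [map_mul, map_inv]; simp

theorem card_W_conj (σ τ : MulAut M) : Nat.card (W (τ * σ * τ⁻¹)) = Nat.card (W σ) := by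
  rw [W_conj]; exact card_map_of_injective τ.injective

theorem app_mem {σ : MulAut M} {K : Subgroup M} (h : W σ ≤ K) {k : M} (hk : k ∈ K) : σ k ∈ K := by
  have : σ k = k * (k⁻¹ * σ k) := by group
  rw [this]; exact mul_mem hk (h (gen_W σ k))

theorem fpf (h2 : ∀ m : M, m * m = 1) {σ : MulAut M} (h3 : σ ^ 3 = 1) {w : M} (hw : w ∈ W σ)
    (e : σ w = w) : w = 1 := by
  obtain ⟨m, hm⟩ := hw
  have h1 : σ m = m * w := by rw [← hm]; exact (mul_inv_cancel_left m (σ m)).symm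
  have : (σ ^ 3) m = m * (w * w) * w := by
    rw [pow_succ', pow_two]
    change σ (σ (σ m)) = _
    rw [h1, map_mul, h1, e, map_mul, map_mul, h1, e]; group
  rw [h3, h2, mul_one] at this
  exact (left_eq_mul.1 this)

theorem three {V K : Subgroup M} (hV : Nat.card V = 4) {c c' : M} (hc : c ∈ V) (hc' : c' ∈ V)
    (kc : c ∈ K) (kc' : c' ∈ K) (h1 : c ≠ 1) (h1' : c' ≠ 1) (hne : c ≠ c') : V ≤ K := by
  classical
  have hd : Nat.card (V ⊓ K : Subgroup M) ∣ 4 := hV ▸ card_dvd_of_le inf_le_left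
  have h3 : 3 ≤ Nat.card (V ⊓ K : Subgroup M) := by
    have hs : ({1, c, c'} : Set M) ⊆ (V ⊓ K : Subgroup M) := by
      rintro _ (rfl | rfl | rfl)
      exacts [one_mem _, ⟨hc, kc⟩, ⟨hc', kc'⟩]
    have := Set.ncard_le_ncard hs
    rw [Set.ncard_insert_of_notMem (by simp [h1.symm, h1'.symm]), Set.ncard_pair hne] at this
    exact this
  have h4 : Nat.card (V ⊓ K : Subgroup M) = 4 := by
    have := Nat.le_of_dvd (by norm_num) hd
    interval_cases h : Nat.card (V ⊓ K : Subgroup M)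
    · norm_num at hd
    · rfl
  rw [← eq_of_le_of_card_ge (inf_le_left : V ⊓ K ≤ V) (by rw [h4, hV])]
  exact inf_le_right

theorem comm_mem {σ ρ : MulAut M} (h : Commute ρ σ) {w : M} (hw : w ∈ W σ) : ρ w ∈ W σ := by
  obtain ⟨m, rfl⟩ := hw
  refine ⟨ρ m, ?_⟩
  change (ρ m)⁻¹ * (σ * ρ) m = ρ (m⁻¹ * σ m)
  rw [← h.eq, map_mul, map_inv]; rfl

theorem claim1 (h2 : ∀ m : M, m * m = 1) {σ ρ : MulAut M} (h : Commute ρ σ) (h3 : σ ^ 3 = 1)
    (h4 : Nat.card (W σ) = 4) (h4' : Nat.card (W ρ) = 4) :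
    W σ = W ρ ∨ ∀ w ∈ W σ, ρ w = w := by
  by_cases hc : ∃ c ∈ W σ, c ∈ W ρ ∧ c ≠ 1
  · obtain ⟨c, h1, h1', hne⟩ := hc
    refine Or.inl (eq_of_le_of_card_ge (three h4 h1 (app_mem le_rfl h1) h1' (comm_mem h.symm h1')
      hne (by simpa using hne) fun e => hne (fpf h2 h3 h1 e.symm)) (by rw [h4, h4']))
  · push Not at hc
    refine Or.inr fun w hw => ?_
    have := hc _ (mul_mem (inv_mem hw) (comm_mem h hw)) (gen_W ρ w)
    exact (inv_mul_eq_one.1 this).symm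

theorem triv2 (h2 : ∀ m : M, m * m = 1) {a : MulAut M} {U : Subgroup M} (h : W a ≤ U)
    (hU : ∀ u ∈ U, a u = u) : a ^ 2 = 1 := by
  ext m
  have h1 := hU _ (h (gen_W a m))
  rw [map_mul, map_inv] at h1
  rw [pow_two]
  change a (a m) = m
  calc a (a m) = a m * ((a m)⁻¹ * a (a m)) := by group
    _ = m⁻¹ * (a m * a m) := by rw [h1]; exact mul_left_comm _ _ _
    _ = m := by rw [h2, mul_one]; exact inv_eq_of_mul_eq_one_right (h2 m)

theorem W_mul_le (a b : MulAut M) : W (a * b) ≤ W a ⊔ W b := by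
  rintro _ ⟨m, rfl⟩
  change m⁻¹ * a (b m) ∈ _
  have : m⁻¹ * a (b m) = (m⁻¹ * b m) * ((b m)⁻¹ * a (b m)) := by group
  rw [this]
  exact mul_mem (mem_sup_right (gen_W b m)) (mem_sup_left (gen_W a _))

theorem W_inv_le (a : MulAut M) : W a⁻¹ ≤ W a := by
  rintro _ ⟨m, rfl⟩
  change m⁻¹ * a⁻¹ m ∈ _
  have : m⁻¹ * a⁻¹ m = ((a⁻¹ m)⁻¹ * a (a⁻¹ m))⁻¹ := by simp
  rw [this]
  exact inv_mem (gen_W a _)

theorem exists_ne_one {V : Subgroup M} (hV : Nat.card V = 4) : ∃ w ∈ V, w ≠ 1 := by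
  by_contra! h
  rw [(eq_bot_iff_forall V).2 h, card_bot] at hV
  norm_num at hV

theorem lemA (h2 : ∀ m : M, m * m = 1) {σ τ b : MulAut M} (h3 : σ ^ 3 = 1) (t3 : τ ^ 3 = 1)
    (h4 : Nat.card (W σ) = 4) (hb : τ * σ * τ⁻¹ = b * σ) (c1 : Commute b σ) (c2 : Commute b τ) :
    b = 1 := by
  have y3 : (b * σ) ^ 3 = 1 := by rw [← hb, conj_pow, h3]; group
  have b3 : b ^ 3 = 1 := by rwa [c1.mul_pow, h3, mul_one] at y3
  have hz : τ * (b * σ) * τ⁻¹ = b * (b * σ) := by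
    rw [← mul_assoc τ, ← c2.eq, mul_assoc b, mul_assoc b, hb]
  have z3 : (b * (b * σ)) ^ 3 = 1 := by rw [← hz, conj_pow, y3]; group
  have h4y : Nat.card (W (b * σ)) = 4 := by rw [← hb, card_W_conj, h4]
  have h4z : Nat.card (W (b * (b * σ))) = 4 := by rw [← hz, card_W_conj, h4y]
  have Wy : W (b * σ) = (W σ).map (τ : M →* M) := by rw [← hb, W_conj]
  have Wz : W (b * (b * σ)) = (W (b * σ)).map (τ : M →* M) := by rw [← hz, W_conj]
  have cy : Commute (b * σ) σ := c1.mul_left (Commute.refl σ)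
  have cz : Commute (b * (b * σ)) σ := c1.mul_left cy
  have main : W σ = W (b * σ) → b = 1 := by
    intro e
    have e' : W σ = W (b * (b * σ)) := by rw [Wz, ← e, ← Wy, ← e]
    have hbW : W b ≤ W σ := by
      have : b = (b * σ) * σ⁻¹ := by group
      rw [this]
      exact (W_mul_le _ _).trans (sup_le e.ge (W_inv_le σ))
    have hfix : ∀ w ∈ W σ, b w = w := by
      intro w hw
      by_cases w1 : w = 1
      · rw [w1, map_one]
      by_contra hne
      have hbw : b w ∈ W σ := comm_mem c1 hw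
      have bw1 : b w ≠ 1 := by simpa using w1
      -- `b w` is `σ w` or `σ² w`
      have n1 : b (σ w) ≠ w := fun h => w1 (fpf h2 y3 (e ▸ hw) h)
      have n2 : b (b (σ w)) ≠ w := fun h => w1 (fpf h2 z3 (e' ▸ hw) h)
      have bσ : ∀ m, b (σ m) = σ (b m) := fun m => DFunLike.congr_fun c1.eq m
      have σ3 : ∀ m, σ (σ (σ m)) = m := fun m => by
        have := DFunLike.congr_fun h3 m
        rwa [pow_succ', pow_two] at this
      classical
      have hs : ({1, w, σ w, σ (σ w), b w} : Set M) ⊆ W σ := by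
        rintro _ (rfl | rfl | rfl | rfl | rfl)
        exacts [one_mem _, hw, app_mem le_rfl hw, app_mem le_rfl (app_mem le_rfl hw), hbw]
      have a1 : σ w ≠ w := fun h => w1 (fpf h2 h3 hw h)
      have a2 : σ (σ w) ≠ σ w := fun h => a1 (σ.injective h)
      have a3 : σ (σ w) ≠ w := fun h => a1 (by have := σ3 w; rwa [h] at this)
      have a4 : b w ≠ σ w := fun h => n2 (by rw [bσ, h, bσ, bσ, h, σ3])
      have a5 : b w ≠ σ (σ w) := fun h => n1 (by rw [bσ, h, σ3])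
      have s1 : σ w ≠ 1 := by simpa using w1
      have s2 : σ (σ w) ≠ 1 := by simpa using w1
      have := Set.ncard_le_ncard hs
      rw [Set.ncard_insert_of_notMem (by simp [Ne.symm w1, s1.symm, s2.symm, bw1.symm]),
        Set.ncard_insert_of_notMem (by simp [a1.symm, a3.symm, Ne.symm hne]),
        Set.ncard_insert_of_notMem (by simp [a2.symm, a4.symm]),
        Set.ncard_pair a5.symm] at this
      have h5 : (W σ : Set M).ncard = 4 := h4
      omega
    have := triv2 h2 hbW hfix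
    rwa [pow_succ, this, one_mul] at b3
  rcases claim1 h2 cy h3 h4 h4y with e | hy
  · exact main e
  rcases claim1 h2 cz h3 h4 h4z with e | hz'
  · apply main
    have : W (b * σ) = (W (b * (b * σ))).map (τ : M →* M) := by rw [← e, Wy]
    rw [this, Wz, Wy, map_map, map_map]
    have : ((τ : M →* M).comp (τ : M →* M)).comp (τ : M →* M) = MonoidHom.id M := by
      ext m
      have := DFunLike.congr_fun t3 m
      rwa [pow_succ', pow_two] at this
    rw [this, map_id]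
  · exfalso
    obtain ⟨w, hw, w1⟩ := exists_ne_one h4
    have e1 : b (σ w) = w := hy w hw
    have e2 : b (b (σ w)) = w := hz' w hw
    rw [e1] at e2
    exact w1 (fpf h2 h3 hw (b.injective (e1.trans e2.symm)))

/-- common fixed points -/
def Fix {G : Type*} [Group G] (ρ : G →* MulAut M) (K : Subgroup G) : Subgroup M where
  carrier := {m | ∀ g ∈ K, ρ g m = m}
  one_mem' := fun _ _ => map_one _
  mul_mem' := fun ha hb g hg => by rw [map_mul, ha g hg, hb g hg]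
  inv_mem' := fun ha g hg => by rw [map_inv, ha g hg]

theorem cnt {G : Type*} [Group G] {p : ℕ} [Fact p.Prime] (ρ : G →* MulAut M) {K : Subgroup G}
    (hK : IsPGroup p K) {U : Subgroup M} (hU : ∀ g ∈ K, ∀ u ∈ U, ρ g u ∈ U) :
    Nat.card U ≡ Nat.card (U ⊓ Fix ρ K : Subgroup M) [MOD p] := by
  let : MulAction K U :=
    { smul := fun g u => ⟨ρ g u, hU g g.2 u u.2⟩
      one_smul := fun u => Subtype.ext (by change ρ 1 u = u; rw [map_one]; rfl)
      mul_smul := fun a b u => Subtype.ext (by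
        change ρ (a * b) u = ρ a (ρ b u); rw [map_mul]; rfl) }
  have := hK.card_modEq_card_fixedPoints U
  suffices e : MulAction.fixedPoints K U ≃ (U ⊓ Fix ρ K : Subgroup M) by
    rwa [Nat.card_congr e] at this
  exact
    { toFun := fun u => ⟨u.1.1, u.1.2, fun g hg => congrArg Subtype.val (u.2 ⟨g, hg⟩)⟩
      invFun := fun u => ⟨⟨u.1, u.2.1⟩, fun g => Subtype.ext (u.2.2 g g.2)⟩
      left_inv := fun _ => rfl
      right_inv := fun _ => rfl }

theorem stab {G : Type*} [Group G] (ρ : G →* MulAut M) (u : M) :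
    ∃ G0 : Subgroup G, (∀ g, g ∈ G0 ↔ ρ g u = u) ∧
      G0.index = (Set.range fun g => ρ g u).ncard := by
  let : MulAction G M := MulAction.compHom M ρ
  exact ⟨MulAction.stabilizer G u, fun _ => Iff.rfl, MulAction.index_stabilizer G u⟩

theorem small {G : Type*} [Group G] [Finite G] {p : ℕ} [hp : Fact p.Prime] (hp5 : 5 ≤ p)
    (hG : IsPGroup p G) (ρ : G →* MulAut M) {U : Subgroup M} (h16 : Nat.card U ∣ 16)
    (hU : ∀ g, ∀ u ∈ U, ρ g u ∈ U) :
    ∃ G0 : Subgroup G, G0.index ∣ p ∧ ∀ g ∈ G0, ∀ u ∈ U, ρ g u = u := by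
  by_cases htr : ∀ g, ∀ u ∈ U, ρ g u = u
  · exact ⟨⊤, by simp, fun g _ => htr g⟩
  push Not at htr
  obtain ⟨g0, u, hu, hne⟩ := htr
  obtain ⟨G0, hG0, hi⟩ := stab ρ u
  have hsub : (Set.range fun g => ρ g u) ⊆ U := by
    rintro _ ⟨g, rfl⟩; exact hU g u hu
  have hle : G0.index ≤ 16 :=
    hi ▸ (Set.ncard_le_ncard hsub).trans (Nat.le_of_dvd (by norm_num) h16)
  obtain ⟨k, hk⟩ := hG.index G0
  have hk1 : k = 1 := by
    rcases k with _ | _ | k
    · exfalso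
      rw [pow_zero, index_eq_one] at hk
      exact hne ((hG0 g0).1 (hk ▸ mem_top _))
    · rfl
    · exfalso
      have : 5 ^ 2 ≤ p ^ (k + 1 + 1) :=
        (Nat.pow_le_pow_left hp5 2).trans (Nat.pow_le_pow_right hp.out.pos (by omega))
      omega
  rw [hk1, pow_one] at hk
  have hn : G0.Normal := by
    apply normal_of_index_eq_minFac_card
    obtain ⟨n, hn⟩ := hG.exists_card_eq
    have : n ≠ 0 := by
      rintro rfl
      have := G0.index_dvd_card
      rw [hn, hk, pow_zero, Nat.dvd_one] at this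
      exact hp.out.ne_one this
    rw [hn, hk, hp.out.pow_minFac this]
  refine ⟨G0, hk ▸ dvd_rfl, ?_⟩
  have hc := cnt ρ (hG.to_subgroup G0) (U := U) fun g _ => hU g
  have hsub' : (Set.range fun g => ρ g u) ⊆ (U ⊓ Fix ρ G0 : Subgroup M) := by
    rintro _ ⟨g, rfl⟩
    refine ⟨hU g u hu, fun s hs => ?_⟩
    have := (hG0 _).1 (hn.conj_mem s hs g⁻¹)
    change ρ s (ρ g u) = ρ g u
    conv_rhs => rw [← this]
    simp [map_mul]
  have h5 : 5 ≤ Nat.card (U ⊓ Fix ρ G0 : Subgroup M) :=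
    hp5.trans (hk ▸ hi ▸ Set.ncard_le_ncard hsub')
  have hd : Nat.card (U ⊓ Fix ρ G0 : Subgroup M) ∣ Nat.card U := card_dvd_of_le inf_le_left
  have he : Nat.card (U ⊓ Fix ρ G0 : Subgroup M) = Nat.card U := by
    generalize Nat.card (U ⊓ Fix ρ G0 : Subgroup M) = c at *
    generalize Nat.card U = n at *
    have n16 := Nat.le_of_dvd (by norm_num) h16
    have n0 : 0 < n := Nat.pos_of_dvd_of_pos h16 (by norm_num)
    have cn := Nat.le_of_dvd n0 hd
    by_contra hne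
    have : c = 8 ∧ n = 16 := by
      interval_cases n <;> simp at h16 <;> interval_cases c <;> simp_all
    obtain ⟨rfl, rfl⟩ := this
    have : p ∣ 2 ^ 3 := (Nat.modEq_iff_dvd' (by norm_num)).1 hc.symm
    have := Nat.le_of_dvd (by norm_num) (hp.out.dvd_of_dvd_pow this)
    omega
  have := eq_of_le_of_card_ge (inf_le_left : U ⊓ Fix ρ G0 ≤ U) he.ge
  intro g hg v hv
  exact (this.symm ▸ hv : v ∈ U ⊓ Fix ρ G0).2 g hg

theorem tr_one (h2 : ∀ m : M, m * m = 1) {X : Subgroup (MulAut M)} (hX : Odd (Nat.card X))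
    {a b : MulAut M} (ha : a ∈ X) (hb : b ∈ X) {u : M} (hu : u ∈ W a ⊔ W b)
    (hfix : ∀ g ∈ X, g u = u) : u = 1 := by
  have := Fintype.ofFinite X
  let tr : M →* M := MonoidHom.mk' (fun w => ∏ g : X, X.subtype g w) fun a b => by
    simp only [map_mul, Finset.prod_mul_distrib]
  have htr : ∀ w, tr w = ∏ g : X, X.subtype g w := fun _ => rfl
  have key : ∀ c ∈ X, W c ≤ tr.ker := by
    rintro c hc _ ⟨m, rfl⟩
    rw [MonoidHom.mem_ker, ← inv_eq_one, ← map_inv, htr]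
    have := FpC.tr_comm X.subtype m ⟨c, hc⟩
    refine Eq.trans (Finset.prod_congr rfl fun g _ => ?_) this
    congr 1
    change (m⁻¹ * c m)⁻¹ = m * (c m)⁻¹
    rw [mul_inv, inv_inv]
  have h1 : tr u = 1 := (sup_le (key a ha) (key b hb)) hu
  have hf : ∀ g : X, X.subtype g u = u := fun g => hfix g g.2
  simp only [htr, hf, Finset.prod_const, Finset.card_univ] at h1
  rw [← Nat.card_eq_fintype_card] at h1
  obtain ⟨k, hk⟩ := hX
  rwa [hk, pow_succ, pow_mul, pow_two, h2, one_pow, one_mul] at h1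

theorem lemC (h2 : ∀ m : M, m * m = 1) {p : ℕ} [hp : Fact p.Prime] (hp5 : 5 ≤ p)
    {H P : Subgroup (MulAut M)} (hH : Odd (Nat.card H)) (hP : IsPGroup p P) (hPH : P ≤ H)
    {σ : MulAut M} (hσ : σ ∈ H) (hn : ∀ a ∈ P, σ * a * σ⁻¹ ∈ P) (h3 : σ ^ 3 = 1)
    (h4 : Nat.card (W σ) = 4) {g : MulAut M} (hg : g ∈ P) :
    ∃ c ∈ W σ, c ∈ W (g * σ * g⁻¹) ∧ c ≠ 1 := by
  by_contra! hall
  set σ' := g * σ * g⁻¹ with hσ'
  have h4' : Nat.card (W σ') = 4 := by rw [card_W_conj, h4]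
  have hi : W σ ⊓ W σ' = ⊥ := eq_bot_iff.2 fun c hc => hall c hc.1 hc.2
  have h16 : Nat.card (W σ ⊔ W σ' : Subgroup M) = 16 := by
    have := Solv.card_sup_mul_card_inf (N := W σ) (H := W σ') le_normalizer_of_normal
    rwa [hi, card_bot, mul_one, h4, h4'] at this
  have si : σ⁻¹ = σ * σ := by
    rw [inv_eq_iff_mul_eq_one, ← mul_assoc, ← pow_three', h3]
  have hn' : ∀ a ∈ P, σ⁻¹ * a * σ ∈ P := fun a ha => by
    have := hn _ (hn a ha)
    rwa [show σ * (σ * a * σ⁻¹) * σ⁻¹ = (σ * σ) * a * (σ * σ)⁻¹ by group, ← si, inv_inv] at this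
  set X : Subgroup (MulAut M) := closure {σ, σ'} with hX
  have σX : σ ∈ X := subset_closure (by simp)
  have σX' : σ' ∈ X := subset_closure (by simp)
  have XH : X ≤ H := by
    rw [hX, closure_le]
    rintro _ (rfl | rfl)
    exacts [hσ, mul_mem (mul_mem (hPH hg) hσ) (inv_mem (hPH hg))]
  have Xodd : Odd (Nat.card X) := hH.of_dvd_nat (card_dvd_of_le XH)
  have WX : ∀ a ∈ X, W a ≤ W σ ⊔ W σ' := by
    intro a ha
    induction ha using closure_induction with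
    | mem a ha =>
      rcases ha with rfl | rfl
      exacts [le_sup_left, le_sup_right]
    | one => rintro _ ⟨m, rfl⟩; change m⁻¹ * m ∈ _; simp
    | mul a b _ _ ha hb => exact (W_mul_le a b).trans (sup_le ha hb)
    | inv a _ ha => exact (W_inv_le a).trans ha
  have FX : ∀ u ∈ W σ ⊔ W σ', σ u = u → σ' u = u → u = 1 := by
    intro u hu e e'
    refine tr_one h2 Xodd σX σX' hu fun a ha => ?_
    induction ha using closure_induction with
    | mem a ha =>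
      rcases ha with rfl | rfl
      exacts [e, e']
    | one => rfl
    | mul a b _ _ ha hb => change a (b u) = u; rw [hb, ha]
    | inv a _ ha => exact a.injective (by rw [ha]; simp)
  set L : Subgroup (MulAut M) := P ⊓ X with hL
  have Lp : IsPGroup p L := hP.to_le inf_le_left
  set b := σ' * σ⁻¹ with hb
  have bL : b ∈ L := mem_inf.2 ⟨by
    have : b = g * (σ * g⁻¹ * σ⁻¹) := by rw [hb, hσ']; group
    rw [this]; exact mul_mem hg (hn _ (inv_mem hg)), mul_mem σX' (inv_mem σX)⟩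
  have bσ : ∀ m, σ' m = b (σ m) := fun m => by rw [hb]; simp
  set U1 : Subgroup M := (W σ ⊔ W σ') ⊓ Fix (MonoidHom.id _) L with hU1
  have U1s : ∀ u ∈ U1, σ u ∈ U1 := fun u hu => mem_inf.2 ⟨app_mem le_sup_left hu.1, fun a ha => by
    have := hu.2 (σ⁻¹ * a * σ) (mem_inf.2 ⟨hn' a ha.1, mul_mem (mul_mem (inv_mem σX) ha.2) σX⟩)
    change a (σ u) = σ u
    conv_rhs => rw [← this]
    simp⟩
  have U1b : U1 = ⊥ := by
    let φ : U1 → U1 := fun u => ⟨(u : M)⁻¹ * σ u, mul_mem (inv_mem u.2) (U1s _ u.2)⟩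
    have inj : Function.Injective φ := by
      intro u v e
      have e' : (u : M)⁻¹ * σ u = (v : M)⁻¹ * σ v := congrArg Subtype.val e
      have hm : (u : M) * (v : M)⁻¹ ∈ U1 := mul_mem u.2 (inv_mem v.2)
      have e2 : σ ((u : M) * (v : M)⁻¹) = u * (v : M)⁻¹ := by
        rw [map_mul, map_inv]
        calc σ u * (σ v)⁻¹ = u * ((u : M)⁻¹ * σ u) * (σ v)⁻¹ := by group
          _ = _ := by rw [e']; group
      have := FX _ hm.1 e2 (by rw [bσ, e2]; exact hm.2 b bL)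
      exact Subtype.ext (mul_inv_eq_one.1 this)
    rw [eq_bot_iff, ← hi]
    intro u hu
    obtain ⟨v, e⟩ := Finite.injective_iff_surjective.1 inj ⟨u, hu⟩
    have e' : (v : M)⁻¹ * σ v = u := congrArg Subtype.val e
    refine mem_inf.2 ⟨⟨v, e'⟩, ⟨v, ?_⟩⟩
    change (v : M)⁻¹ * σ' v = u
    rw [bσ, ← e']
    congr 1
    exact (U1s _ v.2).2 b bL
  have hc := cnt (MonoidHom.id _) Lp (U := W σ ⊔ W σ') fun a ha u hu => app_mem (WX a ha.2) hu
  rw [← hU1, U1b, card_bot, h16] at hc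
  have p5 : p = 5 := by
    have h15 : p ∣ 3 * 5 := (Nat.modEq_iff_dvd' (by norm_num)).1 hc.symm
    rcases (Nat.Prime.dvd_mul hp.out).1 h15 with h | h
    · have := Nat.le_of_dvd (by norm_num) h; omega
    · have := Nat.le_of_dvd (by norm_num) h; omega
  subst p5
  obtain ⟨G0, hi0, hG0⟩ := small hp5 Lp L.subtype (U := W σ ⊔ W σ') (by rw [h16])
    fun a u hu => app_mem (WX a a.2.2) hu
  have G0b : G0 = ⊥ := by
    rw [eq_bot_iff]
    intro a ha
    have e2 := triv2 h2 (WX a a.2.2) (hG0 a ha)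
    obtain ⟨k, hk⟩ := Lp a
    have h1 : orderOf a ∣ 2 := orderOf_dvd_of_pow_eq_one (Subtype.ext e2)
    exact orderOf_eq_one_iff.1 (Nat.eq_one_of_dvd_coprimes ((by norm_num : Nat.Coprime 2 5).pow_right k)
      h1 (orderOf_dvd_of_pow_eq_one hk))
  have b1 : b ≠ 1 := by
    intro e
    have : σ' = σ := mul_inv_eq_one.1 e
    rw [this, inf_idem] at hi
    rw [hi, card_bot] at h4
    norm_num at h4
  rw [G0b, index_bot] at hi0
  have b1' : (⟨b, bL⟩ : L) ≠ 1 := fun e => b1 (congrArg Subtype.val e)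
  have L5 : Nat.card L = 5 := by
    refine ((Nat.dvd_prime hp.out).1 hi0).resolve_left fun e => b1' ?_
    have := (Nat.card_eq_one_iff_unique.1 e).1
    exact Subsingleton.elim _ _
  have cL : σ * b * σ⁻¹ ∈ L := mem_inf.2 ⟨hn b bL.1, mul_mem (mul_mem σX bL.2) (inv_mem σX)⟩
  obtain ⟨k, hk⟩ := (mem_powers_iff_mem_zpowers.2
    (zpowers_eq_top_of_prime_card L5 b1' ▸ mem_top (⟨_, cL⟩ : L)) : _ ∈ Submonoid.powers _)
  have hk' : b ^ k = σ * b * σ⁻¹ := congrArg Subtype.val hk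
  have y3 : (b * σ) ^ 3 = 1 := by
    rw [hb, inv_mul_cancel_right, hσ', conj_pow, h3]; group
  have hN : b ^ (1 + k + k * k) = 1 := by
    have e2 : b ^ (k * k) = σ * (σ * b * σ⁻¹) * σ⁻¹ := by
      rw [pow_mul, hk', conj_pow, hk']
    rw [pow_add, pow_add, e2, hk', pow_one]
    calc b * (σ * b * σ⁻¹) * (σ * (σ * b * σ⁻¹) * σ⁻¹) = (b * σ) ^ 3 * (σ ^ 3)⁻¹ := by
          simp only [pow_three]; group
      _ = 1 := by rw [y3, h3]; group
  have ho : orderOf b = 5 := by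
    have := orderOf_eq_card_of_forall_mem_zpowers
      (fun a => zpowers_eq_top_of_prime_card L5 b1' ▸ mem_top a)
    rw [L5] at this
    rw [← this]; exact orderOf_coe (⟨b, bL⟩ : L)
  have hd := orderOf_dvd_of_pow_eq_one hN
  rw [ho] at hd
  have : k % 5 < 5 := Nat.mod_lt _ (by norm_num)
  have e5 := Nat.mod_eq_zero_of_dvd hd
  rw [Nat.add_mod, Nat.add_mod 1, Nat.mul_mod] at e5
  interval_cases k % 5 <;> simp at e5

theorem lemD (h2 : ∀ m : M, m * m = 1) {p : ℕ} [hp : Fact p.Prime] (hp5 : 5 ≤ p)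
    {H P : Subgroup (MulAut M)} (hH : Odd (Nat.card H)) (hP : IsPGroup p P) (hPH : P ≤ H)
    {σ : MulAut M} (hσ : σ ∈ H) (hn : ∀ a ∈ P, σ * a * σ⁻¹ ∈ P) (h3 : σ ^ 3 = 1)
    (h4 : Nat.card (W σ) = 4) :
    ∃ U : Subgroup M, W σ ≤ U ∧ Nat.card U ∣ 16 ∧ ∀ g ∈ P, ∀ u ∈ U, g u ∈ U := by
  have pair : ∀ g1 ∈ P, ∀ g2 ∈ P,
      ∃ c ∈ W (g1 * σ * g1⁻¹), c ∈ W (g2 * σ * g2⁻¹) ∧ c ≠ 1 := by
    intro g1 h1 g2 h2'
    obtain ⟨c, hc, hc', c1⟩ := lemC h2 hp5 hH hP hPH hσ hn h3 h4 (mul_mem (inv_mem h1) h2')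
    refine ⟨g1 c, ?_, ?_, by simpa using c1⟩
    · rw [W_conj]; exact mem_map_of_mem _ hc
    · have : g2 * σ * g2⁻¹ = g1 * (g1⁻¹ * g2 * σ * (g1⁻¹ * g2)⁻¹) * g1⁻¹ := by group
      rw [this, W_conj]; exact mem_map_of_mem _ hc'
  have h4g : ∀ g : MulAut M, Nat.card (W (g * σ * g⁻¹)) = 4 := fun g => by rw [card_W_conj, h4]
  obtain ⟨U0, hU0, hle⟩ : ∃ U0 : Subgroup M, Nat.card U0 ∣ 16 ∧
      ∀ g ∈ P, W (g * σ * g⁻¹) ≤ U0 := by
    by_cases hall : ∀ g ∈ P, W (g * σ * g⁻¹) = W σ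
    · exact ⟨W σ, by rw [h4]; norm_num, fun g hg => (hall g hg).le⟩
    push Not at hall
    obtain ⟨g0, hg0, hne⟩ := hall
    refine ⟨W σ ⊔ W (g0 * σ * g0⁻¹), ?_, fun h hh => ?_⟩
    · have := Solv.card_sup_mul_card_inf (N := W σ) (H := W (g0 * σ * g0⁻¹))
        le_normalizer_of_normal
      rw [h4, h4g] at this
      exact Dvd.intro _ this
    obtain ⟨c1, a1, b1, n1⟩ := pair h hh 1 (one_mem _)
    obtain ⟨c2, a2, b2, n2⟩ := pair h hh g0 hg0
    obtain ⟨c3, a3, b3, n3⟩ := pair h hh _ (hn g0 hg0)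
    rw [one_mul, inv_one, mul_one] at b1
    rw [show σ * g0 * σ⁻¹ * σ * (σ * g0 * σ⁻¹)⁻¹ = σ * (g0 * σ * g0⁻¹) * σ⁻¹ by group,
      W_conj] at b3
    obtain ⟨d, hd, rfl⟩ := b3
    by_cases e12 : c1 = c2
    · by_cases e13 : c1 = (σ : M →* M) d
      · exfalso
        apply hne
        have d1 : d ≠ 1 := fun e => n3 (by rw [e, map_one])
        have dW : d ∈ W σ := by
          have := app_mem (W_inv_le σ) b1
          rwa [e13, show σ⁻¹ ((σ : M →* M) d) = d by simp] at this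
        refine (eq_of_le_of_card_ge (three h4 b1 dW (e12 ▸ b2) hd n1 d1 fun e => d1 ?_)
          (by rw [h4, h4g])).symm
        exact fpf h2 h3 dW (e13.symm.trans e)
      · exact three (h4g h) a1 a3 (mem_sup_left b1) (app_mem le_sup_left (mem_sup_right hd))
          n1 n3 e13
    · exact three (h4g h) a1 a2 (mem_sup_left b1) (mem_sup_right b2) n1 n2 e12
  refine ⟨⨆ g ∈ P, W (g * σ * g⁻¹), ?_, (card_dvd_of_le (iSup₂_le hle)).trans hU0, ?_⟩
  · refine le_trans ?_ (le_iSup₂ (f := fun g (_ : g ∈ P) => W (g * σ * g⁻¹)) 1 (one_mem _))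
    rw [one_mul, inv_one, mul_one]
  · intro g hg
    have : (⨆ g ∈ P, W (g * σ * g⁻¹)) ≤ (⨆ g ∈ P, W (g * σ * g⁻¹)).comap (g : M →* M) := by
      refine iSup₂_le fun h hh => map_le_iff_le_comap.1 ?_
      rw [← W_conj, show g * (h * σ * h⁻¹) * g⁻¹ = (g * h) * σ * (g * h)⁻¹ by group]
      exact le_iSup₂ (f := fun g (_ : g ∈ P) => W (g * σ * g⁻¹)) (g * h) (mul_mem hg hh)
    exact fun u hu => this hu

end Cfsg.Agent.Rf3
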